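import Cfsg.Agent.H337.HT.QS

/-!
# Free modules for Frobenius groups, no roots of unity needed (helper48, for S3540)

`FR` : `W` a finite-dimensional `K`-space, `x`, `y` endomorphisms with `1 + x + ⋯ + x ^ (r - 1) = 0`, `r` a prime
invertible in `K`, `y * x = x ^ k * y`, `y ^ s = 1` and `k ^ 0, …, k ^ (s - 1)` distinct modulo `r`: then
`dim W = s * dim C_W(y)` (Vandermonde over `K[X]`).
-/

set_option autoImplicit false

namespace Cfsg.Agent.H48.HT

open Polynomial

section ring

variable {R : Type*} [Ring R] {r : ℕ} {x : R}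

theorem pow_r_eq_one (hsum : ∑ i ∈ Finset.range r, x ^ i = 0) : x ^ r = 1 := by
  have h1 := mul_geom_sum x r
  rw [hsum, mul_zero] at h1
  exact (sub_eq_zero.1 h1.symm)

theorem pow_eq_of_mod (hsum : ∑ i ∈ Finset.range r, x ^ i = 0) {a b : ℕ} (h : a ≡ b [MOD r]) : x ^ a = x ^ b := by
  have hr := pow_r_eq_one hsum
  rw [← Nat.div_add_mod a r, ← Nat.div_add_mod b r, pow_add, pow_add, pow_mul, pow_mul, hr, one_pow, one_pow,
    show a % r = b % r from h]

/-- the sum over all powers of `x ^ m` -/
theorem sum_pow_mul (hr : r.Prime) (hsum : ∑ i ∈ Finset.range r, x ^ i = 0) {m : ℕ} (hm : ¬ r ∣ m) :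
    ∑ i ∈ Finset.range r, (x ^ m) ^ i = 0 := by
  haveI : Fact r.Prime := ⟨hr⟩
  rw [← hsum]
  have hcop : Nat.Coprime m r := ((Nat.Prime.coprime_iff_not_dvd hr).2 hm).symm
  refine Finset.sum_bij (fun i _ => m * i % r) (fun i _ => ?_) (fun i hi j hj h => ?_) (fun j hj => ?_)
    (fun i _ => ?_)
  · exact Finset.mem_range.2 (Nat.mod_lt _ hr.pos)
  · have h1 : m * i ≡ m * j [MOD r] := h
    have h2 : i ≡ j [MOD r] := Nat.ModEq.cancel_left_of_coprime (by rw [Nat.coprime_comm] at hcop; exact hcop) h1
    rw [Finset.mem_range] at hi hj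
    exact Nat.ModEq.eq_of_lt_of_lt h2 hi hj
  · obtain ⟨i, hi⟩ : ∃ i : ZMod r, (m : ZMod r) * i = j := by
      have hm0 : (m : ZMod r) ≠ 0 := by rwa [Ne, ZMod.natCast_eq_zero_iff]
      exact ⟨(m : ZMod r)⁻¹ * j, by rw [← mul_assoc, mul_inv_cancel₀ hm0, one_mul]⟩
    refine ⟨i.val, Finset.mem_range.2 (ZMod.val_lt i), ?_⟩
    have h1 : ((m * i.val : ℕ) : ZMod r) = (j : ℕ) := by
      push_cast
      rw [ZMod.natCast_zmod_val, hi]
    have h2 := (ZMod.natCast_eq_natCast_iff _ _ _).1 h1
    rw [Finset.mem_range] at hj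
    have h3 : m * i.val % r = j % r := h2
    rw [h3, Nat.mod_eq_of_lt hj]
  · rw [← pow_mul]
    exact pow_eq_of_mod hsum (Nat.mod_modEq _ _).symm

/-- `(x - 1) * ∑ i x^i = r` -/
theorem sub_one_mul (hsum : ∑ i ∈ Finset.range r, x ^ i = 0) :
    (x - 1) * ∑ i ∈ Finset.range r, (i : R) * x ^ i = r := by
  have hcomm : ∀ i : ℕ, x * ((i : R) * x ^ i) = (i : R) * x ^ (i + 1) := by
    intro i
    rw [← mul_assoc, (Nat.cast_commute i x).eq.symm, mul_assoc, ← pow_succ']
  have h1 : ∀ n : ℕ, (x - 1) * ∑ i ∈ Finset.range n, (i : R) * x ^ i =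
      (n : R) * x ^ n - ∑ i ∈ Finset.range n, x ^ (i + 1) := by
    intro n
    induction n with
    | zero => simp
    | succ n ih =>
      rw [Finset.sum_range_succ, Finset.sum_range_succ, mul_add, ih, sub_mul, one_mul, hcomm]
      push_cast
      rw [add_mul, one_mul]
      abel
  rw [h1]
  have h2 : ∑ i ∈ Finset.range r, x ^ (i + 1) = 0 := by
    have h3 : ∑ i ∈ Finset.range r, x ^ (i + 1) = x * ∑ i ∈ Finset.range r, x ^ i := by
      rw [Finset.mul_sum]
      exact Finset.sum_congr rfl fun i _ => pow_succ' x i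
    rw [h3, hsum, mul_zero]
  rw [h2, pow_r_eq_one hsum, mul_one, sub_zero]

theorem isUnit_sub_one {R : Type*} [Ring R] {r : ℕ} {x : R} (hsum : ∑ i ∈ Finset.range r, x ^ i = 0)
    (hu : IsUnit (r : R)) : IsUnit (x - 1) := by
  have h1 := sub_one_mul hsum
  have hcomm : Commute (x - 1) (∑ i ∈ Finset.range r, (i : R) * x ^ i) := by
    refine Commute.sum_right _ _ _ fun i _ => ?_
    have h2 : Commute x ((i : R) * x ^ i) := (Nat.cast_commute i x).symm.mul_right (Commute.self_pow x i)
    exact h2.sub_left (Commute.one_left _)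
  rw [← h1] at hu
  exact ((hcomm.isUnit_mul_iff).1 hu).1

theorem isUnit_pow_sub_pow_aux {R : Type*} [Ring R] {r : ℕ} {x : R} (hr : r.Prime)
    (hsum : ∑ i ∈ Finset.range r, x ^ i = 0) (hu : IsUnit (r : R)) {a m : ℕ} (hm : ¬ r ∣ m) :
    IsUnit (x ^ a - x ^ (a + m)) := by
  have hx : IsUnit x := IsUnit.of_pow_eq_one (pow_r_eq_one hsum) hr.ne_zero
  have h1 : IsUnit (x ^ m - 1) := isUnit_sub_one (sum_pow_mul hr hsum hm) hu
  have h2 : x ^ a - x ^ (a + m) = -(x ^ a * (x ^ m - 1)) := by
    rw [pow_add, mul_sub, mul_one]; abel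
  rw [h2]
  exact ((hx.pow a).mul h1).neg

theorem isUnit_pow_sub_pow {R : Type*} [Ring R] {r : ℕ} {x : R} (hr : r.Prime)
    (hsum : ∑ i ∈ Finset.range r, x ^ i = 0) (hu : IsUnit (r : R)) {a b : ℕ} (hab : ¬ a ≡ b [MOD r]) :
    IsUnit (x ^ a - x ^ b) := by
  rcases le_total a b with h | h
  · obtain ⟨m, rfl⟩ := Nat.exists_eq_add_of_le h
    refine isUnit_pow_sub_pow_aux hr hsum hu fun hm => hab ?_
    have := (Nat.modEq_zero_iff_dvd.2 hm).add_left a
    rw [add_zero] at this
    exact this.symm
  · obtain ⟨m, rfl⟩ := Nat.exists_eq_add_of_le h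
    rw [← neg_sub]
    refine (isUnit_pow_sub_pow_aux hr hsum hu fun hm => hab ?_).neg
    have := (Nat.modEq_zero_iff_dvd.2 hm).add_left b
    rw [add_zero] at this
    exact this

end ring

section FR

variable {K : Type*} [Field K] {W : Type*} [AddCommGroup W] [Module K W]

/-- Vandermonde with nodes `X ^ (k ^ j)` -/
noncomputable def vm (K : Type*) [Field K] (k s : ℕ) : Matrix (Fin s) (Fin s) K[X] :=
  Matrix.vandermonde fun j => (X : K[X]) ^ k ^ (j : ℕ)

theorem vm_apply (k s : ℕ) (j i : Fin s) : vm K k s j i = (X : K[X]) ^ (k ^ (j : ℕ) * (i : ℕ)) := by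
  rw [vm, Matrix.vandermonde_apply, ← pow_mul]

theorem isUnit_det {x : Module.End K W} {r k s : ℕ} (hr : r.Prime) (hrK : (r : K) ≠ 0)
    (hsum : ∑ i ∈ Finset.range r, x ^ i = 0)
    (hk : ∀ i j : ℕ, i < j → j < s → ¬ k ^ i ≡ k ^ j [MOD r]) :
    IsUnit (aeval x (vm K k s).det) := by
  have hu : IsUnit (r : Module.End K W) := by
    have h1 : (r : Module.End K W) = algebraMap K (Module.End K W) (r : K) := by rw [map_natCast]
    rw [h1]
    exact (isUnit_iff_ne_zero.2 hrK).map _
  rw [vm, Matrix.det_vandermonde]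
  refine Finset.prod_induction _ (fun f : K[X] => IsUnit (aeval x f)) (fun a b ha hb => by
    simp only [map_mul]; exact ha.mul hb) (by simp only [map_one]; exact isUnit_one) fun i _ => ?_
  refine Finset.prod_induction _ (fun f : K[X] => IsUnit (aeval x f)) (fun a b ha hb => by
    simp only [map_mul]; exact ha.mul hb) (by simp only [map_one]; exact isUnit_one) fun j hj => ?_
  simp only [map_sub, map_pow, aeval_X]
  exact isUnit_pow_sub_pow hr hsum hu fun h => hk i j (Fin.lt_def.1 (Finset.mem_Ioi.1 hj)) j.2 h.symm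

/-- `y ^ j * x ^ i = x ^ (k ^ j * i) * y ^ j` -/
theorem twist {R : Type*} [Ring R] {x y : R} {k : ℕ} (hxy : y * x = x ^ k * y) (j i : ℕ) :
    y ^ j * x ^ i = x ^ (k ^ j * i) * y ^ j := by
  have h1 : ∀ i, y * x ^ i = x ^ (k * i) * y := by
    intro i
    induction i with
    | zero => simp
    | succ i ih => rw [pow_succ, ← mul_assoc, ih, mul_assoc, hxy, ← mul_assoc, ← pow_add, mul_add, mul_one]
  induction j generalizing i with
  | zero => simp
  | succ j ih => rw [pow_succ, mul_assoc, h1, ← mul_assoc, ih, mul_assoc, ← pow_succ, ← mul_assoc, ← pow_succ]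

/-- **Freeness** -/
theorem FR [FiniteDimensional K W] {x y : Module.End K W} {r k s : ℕ} (hr : r.Prime) (hrK : (r : K) ≠ 0)
    (hs : 0 < s) (hsum : ∑ i ∈ Finset.range r, x ^ i = 0) (hxy : y * x = x ^ k * y) (hy : y ^ s = 1)
    (hk : ∀ i j : ℕ, i < j → j < s → ¬ k ^ i ≡ k ^ j [MOD r]) :
    Module.finrank K W = s * Module.finrank K (LinearMap.ker (y - 1)) := by
  set C := LinearMap.ker (y - 1) with hC
  have hD := isUnit_det (W := W) hr hrK hsum hk
  have memC : ∀ c, c ∈ C ↔ y c = c := fun c => by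
    rw [hC, LinearMap.mem_ker, LinearMap.sub_apply, sub_eq_zero]; rfl
  have powC : ∀ c ∈ C, ∀ j : ℕ, (y ^ j) c = c := by
    intro c hc j
    induction j with
    | zero => rfl
    | succ j ih => rw [pow_succ, Module.End.mul_apply, (memC c).1 hc, ih]
  apply le_antisymm
  · -- spanning
    set B := (vm K k s).transpose.adjugate with hB
    have hBM : B * (vm K k s).transpose = (vm K k s).det • (1 : Matrix (Fin s) (Fin s) K[X]) := by
      rw [hB, Matrix.adjugate_mul, Matrix.det_transpose]
    set N : Module.End K W := ∑ j : Fin s, y ^ (j : ℕ) with hN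
    have hNC : ∀ w, N w ∈ C := by
      intro w
      rw [memC]
      have h1 : y * N = N := by
        rw [hN, Finset.mul_sum]
        have h2 : ∀ j : ℕ, y * y ^ j = y ^ (j + 1) := fun j => (pow_succ' y j).symm
        simp only [h2]
        rw [Fin.sum_univ_eq_sum_range (fun j => y ^ (j + 1)), Fin.sum_univ_eq_sum_range (fun j => y ^ j)]
        obtain ⟨n, rfl⟩ := Nat.exists_eq_succ_of_ne_zero hs.ne'
        rw [Finset.sum_range_succ, Finset.sum_range_succ' (fun j => y ^ j), hy, pow_zero]
      exact congrArg (fun f : Module.End K W => f w) h1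
    -- the linear map
    let Φ : (Fin s → C) →ₗ[K] W :=
      ∑ i : Fin s, (aeval x (B ⟨0, hs⟩ i)) ∘ₗ C.subtype ∘ₗ LinearMap.proj i
    have hΦ : ∀ w, Φ (fun i : Fin s => ⟨N ((x ^ (i : ℕ)) w), hNC _⟩) = aeval x (vm K k s).det w := by
      intro w
      have h1 : Φ (fun i : Fin s => ⟨N ((x ^ (i : ℕ)) w), hNC _⟩) =
          (∑ i : Fin s, aeval x (B ⟨0, hs⟩ i) * (N * x ^ (i : ℕ))) w := by
        simp only [Φ, LinearMap.sum_apply, LinearMap.comp_apply, LinearMap.proj_apply, Submodule.subtype_apply,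
          Module.End.mul_apply]
      rw [h1]
      congr 1
      have h2 : ∀ i : Fin s, N * x ^ (i : ℕ) = ∑ j : Fin s, aeval x (vm K k s j i) * y ^ (j : ℕ) := by
        intro i
        rw [hN, Finset.sum_mul]
        refine Finset.sum_congr rfl fun j _ => ?_
        rw [twist hxy, vm_apply, map_pow, aeval_X]
      calc ∑ i : Fin s, aeval x (B ⟨0, hs⟩ i) * (N * x ^ (i : ℕ))
          = ∑ i : Fin s, ∑ j : Fin s, aeval x (B ⟨0, hs⟩ i * (vm K k s).transpose i j) * y ^ (j : ℕ) := by
            refine Finset.sum_congr rfl fun i _ => ?_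
            rw [h2, Finset.mul_sum]
            refine Finset.sum_congr rfl fun j _ => ?_
            rw [Matrix.transpose_apply, map_mul, mul_assoc]
        _ = ∑ j : Fin s, aeval x ((B * (vm K k s).transpose) ⟨0, hs⟩ j) * y ^ (j : ℕ) := by
            rw [Finset.sum_comm]
            refine Finset.sum_congr rfl fun j _ => ?_
            rw [Matrix.mul_apply, map_sum, Finset.sum_mul]
        _ = aeval x (vm K k s).det := by
            rw [hBM, Finset.sum_eq_single (⟨0, hs⟩ : Fin s)]
            · simp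
            · intro j _ hj
              rw [Matrix.smul_apply, Matrix.one_apply_ne (Ne.symm hj), smul_zero, map_zero, zero_mul]
            · intro h; exact absurd (Finset.mem_univ _) h
    have hsurj : Function.Surjective Φ := by
      intro w
      obtain ⟨u, hu⟩ := hD
      refine ⟨_, (hΦ ((↑u⁻¹ : Module.End K W) w)).trans ?_⟩
      rw [← hu, ← Module.End.mul_apply, Units.mul_inv]
      rfl
    have h1 := LinearMap.finrank_le_finrank_of_surjective hsurj
    rwa [Module.finrank_pi_fintype, Finset.sum_const, Finset.card_univ, Fintype.card_fin, smul_eq_mul] at h1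
  · -- independence
    set A := (vm K k s).adjugate with hA
    have hAM : A * vm K k s = (vm K k s).det • (1 : Matrix (Fin s) (Fin s) K[X]) := by
      rw [hA, Matrix.adjugate_mul]
    let Ψ : (Fin s → C) →ₗ[K] W := ∑ i : Fin s, (x ^ (i : ℕ)) ∘ₗ C.subtype ∘ₗ LinearMap.proj i
    have hΨ : ∀ c, Ψ c = ∑ i : Fin s, (x ^ (i : ℕ)) (c i : W) := by
      intro c
      simp only [Ψ, LinearMap.sum_apply, LinearMap.comp_apply, LinearMap.proj_apply, Submodule.subtype_apply]
    have hinj : Function.Injective Ψ := by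
      rw [← LinearMap.ker_eq_bot, LinearMap.ker_eq_bot']
      intro c hc
      rw [hΨ] at hc
      have h1 : ∀ j : Fin s, ∑ i : Fin s, aeval x (vm K k s j i) (c i : W) = 0 := by
        intro j
        have h2 := congrArg (y ^ (j : ℕ)) hc
        rw [map_zero, map_sum] at h2
        rw [← h2]
        refine Finset.sum_congr rfl fun i _ => ?_
        rw [← Module.End.mul_apply, twist hxy, Module.End.mul_apply, powC _ (c i).2, vm_apply, map_pow, aeval_X]
      funext i
      apply Subtype.ext
      have h3 : aeval x (vm K k s).det (c i : W) = 0 := by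
        calc aeval x (vm K k s).det (c i : W) = ∑ l : Fin s, aeval x ((A * vm K k s) i l) (c l : W) := by
              rw [hAM, Finset.sum_eq_single i]
              · simp
              · intro j _ hj
                rw [Matrix.smul_apply, Matrix.one_apply_ne (Ne.symm hj), smul_zero, map_zero,
                  LinearMap.zero_apply]
              · intro h; exact absurd (Finset.mem_univ _) h
          _ = ∑ l : Fin s, ∑ j : Fin s, aeval x (A i j) (aeval x (vm K k s j l) (c l : W)) := by
              refine Finset.sum_congr rfl fun l _ => ?_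
              rw [Matrix.mul_apply, map_sum, LinearMap.sum_apply]
              refine Finset.sum_congr rfl fun j _ => ?_
              rw [map_mul, Module.End.mul_apply]
          _ = ∑ j : Fin s, aeval x (A i j) (∑ l : Fin s, aeval x (vm K k s j l) (c l : W)) := by
              rw [Finset.sum_comm]
              exact Finset.sum_congr rfl fun j _ => (map_sum _ _ _).symm
          _ = 0 := by
              refine Finset.sum_eq_zero fun j _ => ?_
              rw [h1, map_zero]
      obtain ⟨u, hu⟩ := hD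
      have h4 : (c i : W) = (↑u⁻¹ : Module.End K W) ((u : Module.End K W) (c i : W)) := by
        rw [← Module.End.mul_apply, Units.inv_mul]
        rfl
      rw [h4, hu, h3, map_zero]
      rfl
    have h1 := LinearMap.finrank_le_finrank_of_injective hinj
    rwa [Module.finrank_pi_fintype, Finset.sum_const, Finset.card_univ, Fintype.card_fin, smul_eq_mul] at h1

end FR

/-! ### eigenspaces -/

section eig

variable {K : Type*} [Field K] {V : Type*} [AddCommGroup V] [Module K V] [FiniteDimensional K V]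

theorem sum_eig {ι : Type} [Fintype ι] (f : Module.End K V) {μ : ι → K} (hμ : Function.Injective μ) :
    ∑ i, Module.finrank K (Module.End.eigenspace f (μ i)) ≤ Module.finrank K V := by
  classical
  have h1 : iSupIndep fun i => Module.End.eigenspace f (μ i) := (Module.End.eigenspaces_iSupIndep f).comp hμ
  have h2 := LinearMap.finrank_le_finrank_of_injective (h1.dfinsupp_lsum_injective)
  refine le_trans (le_of_eq ?_) h2
  exact (Module.finrank_directSum K fun i => Module.End.eigenspace f (μ i)).symm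

/-- if `y` moves the eigenspaces of `x` around, they are small -/
theorem eig_le {x y : Module.End K V} (hy : Function.Injective y) {k r s : ℕ} (hr : r.Prime) (hx : x ^ r = 1)
    (hxy : x * y = y * x ^ k) (hk : ∀ i j : ℕ, i < j → j < s → ¬ k ^ i ≡ k ^ j [MOD r]) {c : K} (hc : c ≠ 1) :
    s * Module.finrank K (Module.End.eigenspace x c) ≤ Module.finrank K V := by
  rcases eq_or_ne (Module.finrank K (Module.End.eigenspace x c)) 0 with h0 | h0
  · rw [h0, mul_zero]; exact Nat.zero_le _
  have hcr : c ^ r = 1 := by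
    have h1 : Module.End.eigenspace x c ≠ ⊥ := fun h => h0 (by rw [h, finrank_bot])
    obtain ⟨v, hv, hv0⟩ := (Submodule.ne_bot_iff _).1 h1
    have h2 : ∀ m : ℕ, (x ^ m) v = c ^ m • v := by
      intro m
      induction m with
      | zero => simp
      | succ m ih =>
        rw [pow_succ, Module.End.mul_apply, Module.End.mem_eigenspace_iff.1 hv, map_smul, ih, smul_smul, pow_succ']
    have h3 := h2 r
    rw [hx, Module.End.one_apply] at h3
    have h4 : (1 - c ^ r) • v = 0 := by rw [sub_smul, one_smul, ← h3, sub_self]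
    exact (sub_eq_zero.1 ((smul_eq_zero.1 h4).resolve_right hv0)).symm
  have hord : orderOf c = r := by
    have : Fact r.Prime := ⟨hr⟩
    exact orderOf_eq_prime hcr hc
  have hc0 : c ≠ 0 := by
    rintro rfl
    rw [zero_pow hr.ne_zero] at hcr
    exact zero_ne_one hcr
  have hinj : Function.Injective fun j : Fin s => c ^ k ^ (j : ℕ) := by
    intro i j hij
    have h1 : k ^ (i : ℕ) ≡ k ^ (j : ℕ) [MOD r] := by
      have h3 : Units.mk0 c hc0 ^ k ^ (i : ℕ) = Units.mk0 c hc0 ^ k ^ (j : ℕ) := by
        apply Units.ext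
        push_cast
        exact hij
      have h2 := pow_inj_mod.1 h3
      rw [← orderOf_units, Units.val_mk0, hord] at h2
      exact h2
    rcases lt_trichotomy (i : ℕ) j with h | h | h
    · exact absurd h1 (hk i j h j.2)
    · exact Fin.ext h
    · exact absurd h1.symm (hk j i h i.2)
  have hstep : ∀ c : K, Module.finrank K (Module.End.eigenspace x c) ≤
      Module.finrank K (Module.End.eigenspace x (c ^ k)) := by
    intro c
    have hmap : (Module.End.eigenspace x c).map y ≤ Module.End.eigenspace x (c ^ k) := by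
      rintro _ ⟨v, hv, rfl⟩
      have h2 : ∀ m : ℕ, (x ^ m) v = c ^ m • v := by
        intro m
        induction m with
        | zero => simp
        | succ m ih =>
          rw [pow_succ, Module.End.mul_apply, Module.End.mem_eigenspace_iff.1 hv, map_smul, ih, smul_smul, pow_succ']
      rw [Module.End.mem_eigenspace_iff, ← Module.End.mul_apply, hxy, Module.End.mul_apply, h2, map_smul]
    calc Module.finrank K (Module.End.eigenspace x c) = Module.finrank K ((Module.End.eigenspace x c).map y) :=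
          ((Module.End.eigenspace x c).equivMapOfInjective y hy).finrank_eq
      _ ≤ _ := Submodule.finrank_mono hmap
  have hstep2 : ∀ j : ℕ, Module.finrank K (Module.End.eigenspace x c) ≤
      Module.finrank K (Module.End.eigenspace x (c ^ k ^ j)) := by
    intro j
    induction j with
    | zero => rw [pow_zero, pow_one]
    | succ j ih =>
      refine ih.trans ((hstep _).trans (le_of_eq ?_))
      rw [← pow_mul, ← pow_succ]
  calc s * Module.finrank K (Module.End.eigenspace x c)
      = ∑ _j : Fin s, Module.finrank K (Module.End.eigenspace x c) := by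
        rw [Finset.sum_const, Finset.card_univ, Fintype.card_fin, smul_eq_mul]
    _ ≤ ∑ j : Fin s, Module.finrank K (Module.End.eigenspace x (c ^ k ^ (j : ℕ))) :=
        Finset.sum_le_sum fun j _ => hstep2 j
    _ ≤ _ := sum_eig x hinj

/-- `dim V = dim C_V(x) + s * m` -/
theorem finrank_fix {x y : Module.End K V} {k r s : ℕ} (hr : r.Prime) (hrK : (r : K) ≠ 0) (hs : 0 < s)
    (hx : x ^ r = 1) (hxy : y * x = x ^ k * y) (hy : y ^ s = 1)
    (hk : ∀ i j : ℕ, i < j → j < s → ¬ k ^ i ≡ k ^ j [MOD r]) :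
    ∃ m, Module.finrank K V = Module.finrank K (Module.End.eigenspace x 1) + s * m ∧ (x ≠ 1 → 0 < m) := by
  set W := LinearMap.range (x - 1) with hW
  have hxW : ∀ w ∈ W, x w ∈ W := by
    rintro _ ⟨v, rfl⟩
    refine ⟨x v, ?_⟩
    rw [← Module.End.mul_apply, ← Module.End.mul_apply, sub_mul, mul_sub, one_mul, mul_one]
  have hyW : ∀ w ∈ W, y w ∈ W := by
    rintro _ ⟨v, rfl⟩
    refine ⟨((∑ i ∈ Finset.range k, x ^ i) * y) v, ?_⟩
    rw [← Module.End.mul_apply, ← Module.End.mul_apply, ← mul_assoc, mul_geom_sum, sub_mul, one_mul, mul_sub,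
      mul_one, hxy]
  have e1 : ∀ (m : ℕ) (w : W), (((x.restrict hxW) ^ m) w : V) = (x ^ m) w := by
    intro m w
    induction m generalizing w with
    | zero => rfl
    | succ m ih => rw [pow_succ, pow_succ, Module.End.mul_apply, Module.End.mul_apply, ih]; rfl
  have e2 : ∀ (m : ℕ) (w : W), (((y.restrict hyW) ^ m) w : V) = (y ^ m) w := by
    intro m w
    induction m generalizing w with
    | zero => rfl
    | succ m ih => rw [pow_succ, pow_succ, Module.End.mul_apply, Module.End.mul_apply, ih]; rfl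
  have h1 := FR (K := K) (W := W) (x := x.restrict hxW) (y := y.restrict hyW) hr hrK hs (by
      refine LinearMap.ext fun w => Subtype.ext ?_
      obtain ⟨w, v, rfl⟩ := w
      rw [LinearMap.sum_apply, AddSubmonoidClass.coe_finsetSum]
      simp only [e1]
      rw [← LinearMap.sum_apply, ← Module.End.mul_apply, geom_sum_mul, hx, sub_self]
      rfl) (by
      refine LinearMap.ext fun w => Subtype.ext ?_
      rw [Module.End.mul_apply, Module.End.mul_apply, e1]
      show y (x w) = (x ^ k) (y w)
      rw [← Module.End.mul_apply, hxy]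
      rfl) (by
      refine LinearMap.ext fun w => Subtype.ext ?_
      rw [e2, hy]
      rfl) hk
  refine ⟨Module.finrank K (LinearMap.ker (y.restrict hyW - 1)), ?_, fun hx1 => ?_⟩
  · have h2 : Module.End.eigenspace x 1 = LinearMap.ker (x - 1) := by
      rw [Module.End.eigenspace_def, one_smul]
    rw [← h1, ← LinearMap.finrank_range_add_finrank_ker (x - 1), add_comm, h2]
  · by_contra h0
    have h2 : Module.finrank K W = 0 := by rw [h1]; simp [Nat.eq_zero_of_not_pos h0]
    have h3 : W = ⊥ := Submodule.finrank_eq_zero.1 h2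
    exact hx1 (sub_eq_zero.1 (LinearMap.range_eq_bot.1 h3))

end eig

/-! ### The setting -/

section QS

open Cfsg.Agent.H828.HT Cfsg.Agent.H337.HT

universe u w

variable {p : ℕ} [Fact p.Prime] {K : Type w} [Field K] {V : Type u} [AddCommGroup V] [Module (ZMod p) V]
  [Module K V] {G L : Subgroup (V ≃ₗ[ZMod p] V)} {h : ℕ}

/-- `L` acts `K`-linearly -/
def rho (H : QS p K V G L h) : L →* Module.End K V where
  toFun l :=
    { toFun := fun v => (l : V ≃ₗ[ZMod p] V) v
      map_add' := fun a b => map_add _ a b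
      map_smul' := fun c v => H.lin l l.2 c v }
  map_one' := rfl
  map_mul' _ _ := rfl

theorem rho_apply (H : QS p K V G L h) (l : L) (v : V) : rho H l v = (l : V ≃ₗ[ZMod p] V) v := rfl

theorem rho_inj (H : QS p K V G L h) : Function.Injective (rho H) := by
  intro a b hab
  apply Subtype.ext
  apply LinearEquiv.ext
  intro v
  exact congrArg (fun f : Module.End K V => f v) hab

theorem rho_ne_one (H : QS p K V G L h) {l : L} (hl : l ≠ 1) : rho H l ≠ 1 := fun h1 =>
  hl (rho_inj H (h1.trans (map_one _).symm))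

theorem rho_injective (H : QS p K V G L h) (l : L) : Function.Injective (rho H l) := fun _ _ hab =>
  (l : V ≃ₗ[ZMod p] V).injective hab

/-- `det = 1` -/
theorem det_rho (H : QS p K V G L h) (l : L) : LinearMap.det (rho H l) = 1 := by
  let f : L →* Kˣ := MonoidHom.toHomUnits ((LinearMap.det : Module.End K V →* K).comp (rho H))
  have h1 := Abelianization.commutator_subset_ker f
  rw [H.perf] at h1
  have h2 : f l = 1 := h1 (Subgroup.mem_top l)
  exact congrArg Units.val h2

theorem center_scalar (H : QS p K V G L h) {z : L} (hz : z ∈ Subgroup.center L) :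
    ∃ c : K, ∀ v : V, (z : V ≃ₗ[ZMod p] V) v = c • v := by
  obtain ⟨c, hc⟩ := H.endo ((z : V ≃ₗ[ZMod p] V) : V →ₗ[ZMod p] V) fun l hl v => by
    have h1 := Subgroup.mem_center_iff.1 hz ⟨l, hl⟩
    have h2 : l * (z : V ≃ₗ[ZMod p] V) = z * l := congrArg Subtype.val h1
    exact (congrArg (fun f : V ≃ₗ[ZMod p] V => f v) h2).symm
  exact ⟨c, hc⟩

theorem center_pow (H : QS p K V G L h) {z : L} (hz : z ∈ Subgroup.center L) :
    z ^ Module.finrank K V = 1 := by
  obtain ⟨c, hc⟩ := center_scalar H hz
  have h1 : rho H z = c • LinearMap.id := LinearMap.ext hc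
  have h2 := det_rho H z
  rw [h1, LinearMap.det_smul, LinearMap.det_id, mul_one] at h2
  apply rho_inj H
  rw [map_pow, h1, map_one]
  have h3 : ∀ m : ℕ, (c • (LinearMap.id : V →ₗ[K] V)) ^ m = c ^ m • (1 : Module.End K V) := by
    intro m
    have : (c • (LinearMap.id : V →ₗ[K] V)) = c • (1 : Module.End K V) := rfl
    rw [this, _root_.smul_pow, one_pow]
  rw [h3, h2, one_smul]

theorem ne_zero (H : QS p K V G L h) : ∃ v : V, v ≠ 0 := by
  by_contra hc
  push Not at hc
  obtain ⟨a, _, b, _, hab⟩ := H.nonab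
  apply hab
  ext v
  rw [hc v, map_zero, map_zero]

theorem cast_ne (H : QS p K V G L h) {r : ℕ} (hrG : r ∣ Nat.card L) (hr : r.Prime) : (r : K) ≠ 0 := by
  intro h0
  obtain ⟨v, hv⟩ := ne_zero H
  have hp : (p : K) = 0 := by
    have h1 : (p : K) • v = 0 := by
      rw [Nat.cast_smul_eq_nsmul K, ← Nat.cast_smul_eq_nsmul (ZMod p), ZMod.natCast_self, zero_smul]
    exact (smul_eq_zero.1 h1).resolve_right hv
  have hne : r ≠ p := by
    rintro rfl
    exact H.cop (hrG.trans (Subgroup.card_dvd_of_le H.le))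
  have hcop : Nat.Coprime r p := (Nat.coprime_primes hr (Fact.out : p.Prime)).2 hne
  have h1 : IsCoprime (r : ℤ) (p : ℤ) := Nat.isCoprime_iff_coprime.2 hcop
  obtain ⟨a, b, hab⟩ := h1
  have h2 := congrArg (Int.cast : ℤ → K) hab
  push_cast at h2
  rw [h0, hp, mul_zero, mul_zero, add_zero] at h2
  exact zero_ne_one h2

/-- elements of `S = L / Z` of order dividing `r` lift -/
theorem lift (H : QS p K V G L h) {r : ℕ} (hr : r.Coprime (Module.finrank K V))
    {s : L ⧸ Subgroup.center L} (hs : s ^ r = 1) : ∃ x : L, (x : L ⧸ Subgroup.center L) = s ∧ x ^ r = 1 := by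
  obtain ⟨x, rfl⟩ := QuotientGroup.mk_surjective s
  have h1 : x ^ r ∈ Subgroup.center L := by
    rw [← QuotientGroup.eq_one_iff, QuotientGroup.mk_pow]
    exact hs
  set n := Module.finrank K V with hn
  have hZ : (x ^ r) ^ n = 1 := center_pow H h1
  obtain ⟨a, b, hab⟩ := (Nat.isCoprime_iff_coprime.2 hr : IsCoprime (r : ℤ) (n : ℤ))
  refine ⟨x ^ (b * n), ?_, ?_⟩
  · rw [QuotientGroup.mk_zpow]
    have h2 : ((x : L ⧸ Subgroup.center L)) ^ (1 : ℤ) = (x : L ⧸ Subgroup.center L) ^ (b * n : ℤ) := by
      rw [← hab, zpow_add, mul_comm a, zpow_mul, zpow_natCast, hs, one_zpow, one_mul]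
    rw [← h2, zpow_one]
  · rw [← zpow_natCast, ← zpow_mul, mul_assoc, mul_comm, mul_comm (n : ℤ), zpow_mul, zpow_mul, zpow_natCast,
      zpow_natCast, hZ, one_zpow]

/-- relations lift -/
theorem lift_rel (H : QS p K V G L h) {r k : ℕ} (hr : r.Coprime (Module.finrank K V)) {x y : L}
    (hx : x ^ r = 1)
    (hxy : (y : L ⧸ Subgroup.center L) * x * (y : L ⧸ Subgroup.center L)⁻¹ = (x : L ⧸ Subgroup.center L) ^ k) :
    y * x * y⁻¹ = x ^ k := by
  have h1 : y * x * y⁻¹ * (x ^ k)⁻¹ ∈ Subgroup.center L := by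
    rw [← QuotientGroup.eq_one_iff]
    change ((y : L ⧸ Subgroup.center L) * x * (y : L ⧸ Subgroup.center L)⁻¹) * ((x : L ⧸ Subgroup.center L) ^ k)⁻¹ = 1
    rw [hxy, mul_inv_cancel]
  set z := y * x * y⁻¹ * (x ^ k)⁻¹ with hz
  have h2 : y * x * y⁻¹ = z * x ^ k := by rw [hz, inv_mul_cancel_right]
  have h3 : z ^ r = 1 := by
    have h4 : (y * x * y⁻¹) ^ r = 1 := by rw [conj_pow, hx, mul_one, mul_inv_cancel]
    rw [h2, Commute.mul_pow ((Subgroup.mem_center_iff.1 h1 _).symm), ← pow_mul, mul_comm k, pow_mul, hx, one_pow,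
      mul_one] at h4
    exact h4
  have h5 : z = 1 := by
    have h6 := center_pow H h1
    rw [← pow_one z, ← (hr : Nat.gcd r _ = 1)]
    exact pow_gcd_eq_one.2 ⟨h3, h6⟩
  rw [h2, h5, one_mul]

/-- number of eigenvectors -/
theorem card_eig (H : QS p K V G L h) [Finite V] (x : L) (c : K) :
    Nat.card {v : V // (x : V ≃ₗ[ZMod p] V) v = c • v} =
      Nat.card K ^ Module.finrank K (Module.End.eigenspace (rho H x) c) := by
  rw [← Module.natCard_eq_pow_finrank (K := K)]
  exact Nat.card_congr (Equiv.subtypeEquivRight fun v => (Module.End.mem_eigenspace_iff (f := rho H x)).symm)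

/-- **Upper bound for the eigenspaces** of `x` with `x ^ r` central, given the bounds for the elements of order `r`. -/
theorem card_eig_le (H : QS p K V G L h) [Finite V] [FiniteDimensional K V] {r d : ℕ}
    (hr : r.Coprime (Module.finrank K V))
    (hd : ∀ x : L, x ^ r = 1 → x ≠ 1 → ∀ c : K, Module.finrank K (Module.End.eigenspace (rho H x) c) ≤ d)
    {x : L} (hx : x ∉ Subgroup.center L) (hxr : x ^ r ∈ Subgroup.center L) (c : K) :
    Nat.card {v : V // (x : V ≃ₗ[ZMod p] V) v = c • v} ≤ Nat.card K ^ d := by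
  obtain ⟨v, hv⟩ := ne_zero H
  have hK : Finite K := Finite.of_injective (fun c : K => c • v) fun a b hab => by
    have h1 : (a - b) • v = 0 := by rw [sub_smul]; exact sub_eq_zero.2 hab
    exact sub_eq_zero.1 ((smul_eq_zero.1 h1).resolve_right hv)
  obtain ⟨m, hm⟩ : ∃ m : ℕ, r ∣ m - 1 ∧ Module.finrank K V ∣ m ∧ 1 ≤ m := by
    set n := Module.finrank K V with hn
    have hn0 : n ≠ 0 := by
      intro h0
      have h1 : Module.finrank K V = 0 := h0
      have := Module.finrank_zero_iff.1 h1
      exact hv (Subsingleton.elim _ _)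
    have h1 := Nat.chineseRemainder hr 1 0
    obtain ⟨m, hm1, hm2⟩ := h1
    refine ⟨m + r * n, ?_, ?_, ?_⟩
    · rcases Nat.eq_zero_or_pos r with h0 | h0
      · subst h0
        rw [Nat.coprime_zero_left] at hr
        rw [zero_mul, add_zero]
        have : m = 1 := by
          rw [Nat.modEq_zero_iff] at hm1
          exact hm1
        rw [this]
      · have h2 : 1 ≤ m + r * n := by nlinarith [Nat.pos_of_ne_zero hn0]
        refine (Nat.modEq_iff_dvd' h2).1 ?_
        have h3 : m + r * n ≡ 1 + 0 [MOD r] := hm1.add ((Nat.modEq_zero_iff_dvd).2 (dvd_mul_right r n))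
        exact h3.symm
    · exact dvd_add ((Nat.modEq_zero_iff_dvd).1 hm2) (dvd_mul_left n r)
    · rcases Nat.eq_zero_or_pos r with h0 | h0
      · subst h0
        rw [Nat.modEq_zero_iff] at hm1
        omega
      · nlinarith [Nat.pos_of_ne_zero hn0]
  obtain ⟨⟨a, ha⟩, ⟨b, hb⟩, hm1⟩ := hm
  have hx1 : (x ^ m) ^ r = 1 := by
    rw [← pow_mul, mul_comm, hb, pow_mul, pow_mul]
    rw [center_pow H hxr, one_pow]
  have hx2 : x ^ m ≠ 1 := by
    intro h1
    apply hx
    have h2 : x ^ m = x * (x ^ r) ^ a := by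
      rw [← pow_mul, ← ha, ← pow_succ']
      congr 1
      omega
    rw [h2] at h1
    rw [eq_inv_of_mul_eq_one_left h1]
    exact Subgroup.inv_mem _ (Subgroup.pow_mem _ hxr a)
  refine le_trans ?_ ((card_eig H (x ^ m) (c ^ m)).le.trans (Nat.pow_le_pow_right Nat.card_pos (hd _ hx1 hx2 _)))
  refine Nat.card_le_card_of_injective (fun v => ⟨v.1, ?_⟩) fun a b hab => by
      apply Subtype.ext
      exact congrArg (fun u : {v : V // ((x ^ m : L) : V ≃ₗ[ZMod p] V) v = c ^ m • v} => u.1) hab
  have h3 : ∀ k : ℕ, ((x ^ k : L) : V ≃ₗ[ZMod p] V) v.1 = c ^ k • v.1 := by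
    intro k
    induction k with
    | zero => rw [pow_zero, pow_zero, one_smul]; rfl
    | succ k ih =>
      rw [pow_succ]
      change ((x ^ k : L) : V ≃ₗ[ZMod p] V) ((x : V ≃ₗ[ZMod p] V) v.1) = _
      rw [v.2, H.lin _ (x ^ k).2, ih, smul_smul, pow_succ']
  exact h3 m

end QS

end Cfsg.Agent.H48.HT
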