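import Cfsg.Agent.H48.HT.FR
import Cfsg.Agent.H578.HT.Cov
import Cfsg.Agent.H392.HT.SFacts

/-!
# S3540, quasisimple rows, `n = 4`: `A₅`, `A₆`, `A₇`, `L₂(7)` (helper48)
-/

set_option autoImplicit false

namespace Cfsg.Agent.H48.HT

open Cfsg.Agent.H828.HT Cfsg.Agent.H337.HT
open Cfsg.Agent.H578.HT (cov_card covL_card rank_two' finK card_V)

universe u w

variable {p : ℕ} [Fact p.Prime] {K : Type w} [Field K] {V : Type u} [AddCommGroup V] [Module (ZMod p) V]
  [Module K V] {G L : Subgroup (V ≃ₗ[ZMod p] V)} {h : ℕ}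

theorem dvd_L {r : ℕ} (hS : r ∣ Nat.card (L ⧸ Subgroup.center L)) : r ∣ Nat.card L :=
  hS.trans (Subgroup.card_quotient_dvd_card _)

theorem not_dvd_S (H : QS p K V G L h) : ¬ p ∣ Nat.card (L ⧸ Subgroup.center L) := fun hd =>
  H.cop ((dvd_L hd).trans (Subgroup.card_dvd_of_le H.le))

/-- `q` is a power of `p` -/
theorem le_q (H : QS p K V G L h) [Finite V] : p ≤ Nat.card K := by
  have := finK H
  obtain ⟨v, hv⟩ := ne_zero H
  have hp : (p : K) = 0 := by
    have h1 : (p : K) • v = 0 := by
      rw [Nat.cast_smul_eq_nsmul K, ← Nat.cast_smul_eq_nsmul (ZMod p), ZMod.natCast_self, zero_smul]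
    exact (smul_eq_zero.1 h1).resolve_right hv
  have h1 : CharP K p := (CharP.charP_iff_prime_eq_zero (Fact.out : p.Prime)).2 hp
  have : Fintype K := Fintype.ofFinite K
  obtain ⟨n, -, hn⟩ := FiniteField.card K p
  rw [Nat.card_eq_fintype_card, hn]
  exact Nat.le_self_pow n.ne_zero p

section seven

/-- `y x y⁻¹ = x ^ 2`, `y ^ 3 = 1` in dimension 4 -/
theorem seven_dims (H : QS p K V G L h) [Finite V] (hn : Module.finrank K V = 4)
    (h7 : 7 ∣ Nat.card (L ⧸ Subgroup.center L))
    (hrel : ∀ s : L ⧸ Subgroup.center L, s ^ 7 = 1 → s ≠ 1 → ∃ t : L ⧸ Subgroup.center L, t ^ 3 = 1 ∧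
      t * s * t⁻¹ = s ^ 2) {x : L} (hx : x ^ 7 = 1) (hx1 : x ≠ 1) :
    Module.finrank K (Module.End.eigenspace (rho H x) 1) = 1 ∧
      ∀ c : K, Module.finrank K (Module.End.eigenspace (rho H x) c) ≤ 1 := by
  have hfd : FiniteDimensional K V := Module.Finite.of_finite
  have c7 : Nat.Coprime 7 (Module.finrank K V) := by rw [hn]; decide
  have c3 : Nat.Coprime 3 (Module.finrank K V) := by rw [hn]; decide
  have hs1 : (x : L ⧸ Subgroup.center L) ≠ 1 := by
    intro h1
    have h2 := center_pow H ((QuotientGroup.eq_one_iff x).1 h1)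
    apply hx1
    rw [← pow_one x, ← (c7 : Nat.gcd 7 _ = 1)]
    exact pow_gcd_eq_one.2 ⟨hx, h2⟩
  obtain ⟨t, ht3, ht⟩ := hrel x (by rw [← QuotientGroup.mk_pow, hx]; rfl) hs1
  obtain ⟨y, rfl, hy⟩ := lift H c3 ht3
  have hxy := lift_rel H c7 hx ht
  have hrho : rho H y * rho H x = rho H x ^ 2 * rho H y := by
    rw [← map_mul, ← map_pow, ← map_mul, ← hxy, inv_mul_cancel_right]
  have hk : ∀ i j : ℕ, i < j → j < 3 → ¬ 2 ^ i ≡ 2 ^ j [MOD 7] := by
    intro i j hij hj
    interval_cases j <;> interval_cases i <;> decide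
  have hx7 : rho H x ^ 7 = 1 := by rw [← map_pow, hx, map_one]
  obtain ⟨m, hm, hm0⟩ := finrank_fix (x := rho H x) (y := rho H y) (k := 2) (r := 7) (s := 3) (by norm_num)
    (by exact_mod_cast cast_ne H (dvd_L h7) (by norm_num)) (by norm_num) hx7 hrho
    (by rw [← map_pow, hy, map_one]) hk
  rw [hn] at hm
  have h1 := hm0 (rho_ne_one H hx1)
  have h2 : Module.finrank K (Module.End.eigenspace (rho H x) 1) = 1 := by omega
  refine ⟨h2, fun c => ?_⟩
  rcases eq_or_ne c 1 with rfl | hc
  · exact h2.le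
  · have h3 := eig_le (x := rho H x) (y := rho H y⁻¹) (rho_injective H _) (k := 2) (r := 7) (s := 3) (by norm_num)
      hx7 (by
        rw [← map_pow, ← map_mul, ← map_mul, ← hxy]
        congr 1
        group) hk hc
    rw [hn] at h3
    omega

theorem four_seven (H : QS p K V G L h) [Finite V] (hn : Module.finrank K V = 4) {N : ℕ}
    (h7 : 7 ∣ Nat.card (L ⧸ Subgroup.center L))
    (hout : ¬ 7 ∣ Nat.card (MulAut (L ⧸ Subgroup.center L)) / Nat.card (L ⧸ Subgroup.center L))
    (hN : Nat.card {R : Subgroup (L ⧸ Subgroup.center L) // Nat.card R = 7} ≤ N)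
    (hrel : ∀ s : L ⧸ Subgroup.center L, s ^ 7 = 1 → s ≠ 1 → ∃ t : L ⧸ Subgroup.center L, t ^ 3 = 1 ∧
      t * s * t⁻¹ = s ^ 2) :
    Nat.card K ^ 4 - 1 ≤ N * 4 * (Nat.card K ^ 1 - 1) := by
  have hfd : FiniteDimensional K V := Module.Finite.of_finite
  have hfG : Finite G := Nat.finite_of_card_ne_zero fun h0 => H.cop (h0 ▸ dvd_zero p)
  have hfL : Finite L := Finite.of_injective (Subgroup.inclusion H.le) (Subgroup.inclusion_injective _)
  have c7 : Nat.Coprime 7 (Module.finrank K V) := by rw [hn]; decide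
  have h1 : 7 ∣ h := by
    have : Fact (Nat.Prime 7) := ⟨by norm_num⟩
    obtain ⟨x, hx⟩ := exists_prime_orderOf_dvd_card' 7 (dvd_L h7)
    have hx7 : x ^ 7 = 1 := by rw [← hx]; exact pow_orderOf_eq_one x
    have hx1 : x ≠ 1 := by rintro rfl; rw [orderOf_one] at hx; omega
    obtain ⟨h2, -⟩ := seven_dims H hn h7 hrel hx7 hx1
    have h3 : Module.End.eigenspace (rho H x) 1 ≠ ⊥ := fun h0 => by rw [h0, finrank_bot] at h2; omega
    obtain ⟨v, hv, hv0⟩ := (Submodule.ne_bot_iff _).1 h3
    rw [Module.End.mem_eigenspace_iff, one_smul] at hv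
    have h4 : orderOf (⟨x, H.le x.2⟩ : G) = 7 := by
      rw [← hx, ← Subgroup.orderOf_coe, ← Subgroup.orderOf_coe]
    exact dvd_h H.half h4 hv0 hv
  have h2 := cov_card H (r := 7) (by norm_num) h1 hout (d := 1) (k := 4) (N := N)
    (fun x hx hxr c => card_eig_le H c7 (fun x hx hx1 c => (seven_dims H hn h7 hrel hx hx1).2 c) hx hxr c)
    (by rw [hn]) hN
  rwa [hn] at h2

end seven

section three

/-- elements of order 3 are inverted: all eigenspaces have dimension at most 2 -/
theorem three_dims (H : QS p K V G L h) [Finite V] (hn : Module.finrank K V = 4)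
    (hrel : ∀ s : L ⧸ Subgroup.center L, s ^ 3 = 1 → ∃ t : L ⧸ Subgroup.center L, t * s * t⁻¹ = s⁻¹)
    {x : L} (hx : x ^ 3 = 1) (hx1 : x ≠ 1) (c : K) :
    Module.finrank K (Module.End.eigenspace (rho H x) c) ≤ 2 := by
  have hfd : FiniteDimensional K V := Module.Finite.of_finite
  have c3 : Nat.Coprime 3 (Module.finrank K V) := by rw [hn]; decide
  have hx2 : x⁻¹ = x ^ 2 := by
    rw [inv_eq_iff_mul_eq_one, ← pow_succ', hx]
  obtain ⟨t, ht⟩ := hrel x (by rw [← QuotientGroup.mk_pow, hx]; rfl)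
  obtain ⟨y, rfl⟩ := QuotientGroup.mk_surjective t
  have hxy : y * x * y⁻¹ = x ^ 2 := by
    refine lift_rel H c3 hx ?_
    rw [← QuotientGroup.mk_pow, ← hx2]
    exact ht
  have hk : ∀ i j : ℕ, i < j → j < 2 → ¬ 2 ^ i ≡ 2 ^ j [MOD 3] := by
    intro i j hij hj
    interval_cases j <;> interval_cases i <;> decide
  have hx3 : rho H x ^ 3 = 1 := by rw [← map_pow, hx, map_one]
  have hy' : rho H x * rho H y⁻¹ = rho H y⁻¹ * rho H x ^ 2 := by
    rw [← map_pow, ← map_mul, ← map_mul, ← hxy]
    congr 1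
    group
  rcases eq_or_ne c 1 with rfl | hc
  · -- the fixed space: `V / C_V(x)` is not one-dimensional
    by_contra hcon
    have hge : 3 ≤ Module.finrank K (Module.End.eigenspace (rho H x) 1) := by omega
    set C := Module.End.eigenspace (rho H x) 1 with hC
    have hCk : C = LinearMap.ker (rho H x - 1) := by rw [hC, Module.End.eigenspace_def, one_smul]
    have h1 := LinearMap.finrank_range_add_finrank_ker (rho H x - 1)
    rw [← hCk, hn] at h1
    -- the range has dimension one
    have h2 : Module.finrank K (LinearMap.range (rho H x - 1)) ≤ 1 := by omega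
    obtain ⟨w, hw, hw0⟩ : ∃ w ∈ LinearMap.range (rho H x - 1), w ≠ 0 := by
      refine (Submodule.ne_bot_iff _).1 fun hb => ?_
      exact rho_ne_one H hx1 (sub_eq_zero.1 (LinearMap.range_eq_bot.1 hb))
    have h3 : ∀ v ∈ LinearMap.range (rho H x - 1), ∃ c : K, c • w = v := by
      intro v hv
      obtain ⟨c, hc⟩ := (finrank_le_one_iff.1 h2)
      obtain ⟨a, ha⟩ := hc ⟨w, hw⟩
      obtain ⟨b, hb⟩ := hc ⟨v, hv⟩
      have ha0 : a ≠ 0 := by
        rintro rfl
        rw [zero_smul] at ha
        exact hw0 (congrArg Subtype.val ha).symm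
      refine ⟨b * a⁻¹, ?_⟩
      have e1 : a • (c : V) = w := congrArg Subtype.val ha
      have e2 : b • (c : V) = v := congrArg Subtype.val hb
      rw [← e1, smul_smul, mul_assoc, inv_mul_cancel₀ ha0, mul_one, e2]
    have hxw : rho H x w ∈ LinearMap.range (rho H x - 1) := by
      obtain ⟨v, rfl⟩ := hw
      refine ⟨rho H x v, ?_⟩
      rw [← Module.End.mul_apply, ← Module.End.mul_apply, sub_mul, mul_sub, one_mul, mul_one]
    obtain ⟨c, hcw⟩ := h3 _ hxw
    have hc1 : c ≠ 1 := by
      rintro rfl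
      rw [one_smul] at hcw
      -- `w` fixed and in the range: `3 w = 0`
      obtain ⟨v, hv⟩ := hw
      have e0 : rho H x v = v + w := by
        rw [← hv, LinearMap.sub_apply]; simp
      have e1 : (rho H x ^ 3) v = v + (3 : K) • w := by
        have e3 : rho H x w = w := hcw.symm
        rw [pow_succ, pow_succ, pow_one, Module.End.mul_apply, Module.End.mul_apply, e0, map_add, e0, e3, map_add,
          map_add, e0, e3]
        rw [show (3 : K) = 1 + 1 + 1 by norm_num, add_smul, add_smul, one_smul]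
        abel
      rw [hx3, Module.End.one_apply] at e1
      have e2 : (3 : K) • w = 0 := by
        have := e1.symm
        rwa [add_eq_left] at this
      rcases smul_eq_zero.1 e2 with e3 | e3
      · refine cast_ne H (r := 3) ?_ (by norm_num) (by exact_mod_cast e3)
        have : orderOf x = 3 := by
          have : Fact (Nat.Prime 3) := ⟨by norm_num⟩
          exact orderOf_eq_prime hx hx1
        rw [← this]
        exact orderOf_dvd_natCard x
      · exact hw0 e3
    -- `E_c` and `E_{c^2}` are both nonzero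
    have hpw : ∀ m : ℕ, (rho H x ^ m) w = c ^ m • w := by
      intro m
      induction m with
      | zero => simp
      | succ m ih =>
        rw [pow_succ, Module.End.mul_apply, ← hcw, map_smul, ih, smul_smul, pow_succ']
    have hc3 : c ^ 3 = 1 := by
      have e1 := hpw 3
      rw [hx3, Module.End.one_apply] at e1
      have e2 : (1 - c ^ 3) • w = 0 := by rw [sub_smul, one_smul, ← e1, sub_self]
      exact (sub_eq_zero.1 ((smul_eq_zero.1 e2).resolve_right hw0)).symm
    have hm1 : w ∈ Module.End.eigenspace (rho H x) c := Module.End.mem_eigenspace_iff.2 hcw.symm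
    have hm2 : rho H y⁻¹ w ∈ Module.End.eigenspace (rho H x) (c ^ 2) := by
      rw [Module.End.mem_eigenspace_iff, ← Module.End.mul_apply, hy', Module.End.mul_apply, hpw, map_smul]
    have hy0 : rho H y⁻¹ w ≠ 0 := fun h0 => hw0 (rho_injective H _ (h0.trans (map_zero _).symm))
    have hpos : ∀ (μ : K) (u : V), u ∈ Module.End.eigenspace (rho H x) μ → u ≠ 0 →
        1 ≤ Module.finrank K (Module.End.eigenspace (rho H x) μ) := by
      intro μ u hu hu0
      rw [Nat.one_le_iff_ne_zero]
      intro h0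
      have := Submodule.finrank_eq_zero.1 h0
      rw [this] at hu
      exact hu0 ((Submodule.mem_bot K).1 hu)
    have hord : orderOf c = 3 := by
      have : Fact (Nat.Prime 3) := ⟨by norm_num⟩
      exact orderOf_eq_prime hc3 hc1
    have hinj : Function.Injective fun i : Fin 3 => c ^ (i : ℕ) := by
      intro i j hij
      have h12 := pow_injOn_Iio_orderOf (x := c) (by rw [hord]; exact i.2) (by rw [hord]; exact j.2) hij
      exact Fin.ext h12
    have h6 := sum_eig (rho H x) hinj
    rw [hn, Fin.sum_univ_three] at h6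
    have h6' : Module.finrank K C + Module.finrank K (Module.End.eigenspace (rho H x) c) +
        Module.finrank K (Module.End.eigenspace (rho H x) (c ^ 2)) ≤ 4 := by
      have e0 : c ^ ((0 : Fin 3) : ℕ) = 1 := pow_zero c
      have e1 : c ^ ((1 : Fin 3) : ℕ) = c := pow_one c
      have e2 : c ^ ((2 : Fin 3) : ℕ) = c ^ 2 := rfl
      rw [e0, e1, e2] at h6
      exact h6
    have h7 := hpos c w hm1 hw0
    have h8 := hpos (c ^ 2) _ hm2 hy0
    omega
  · have h4 := eig_le (x := rho H x) (y := rho H y⁻¹) (rho_injective H _) (k := 2) (r := 3) (s := 2) (by norm_num)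
      hx3 hy' hk hc
    rw [hn] at h4
    omega

theorem four_three (H : QS p K V G L h) [Finite V] (hn : Module.finrank K V = 4) {N : ℕ} (h3 : 3 ∣ h)
    (hout : ¬ 3 ∣ Nat.card (MulAut (L ⧸ Subgroup.center L)) / Nat.card (L ⧸ Subgroup.center L))
    (hN : Nat.card {R : Subgroup (L ⧸ Subgroup.center L) // Nat.card R = 3} ≤ N)
    (hrel : ∀ s : L ⧸ Subgroup.center L, s ^ 3 = 1 → ∃ t : L ⧸ Subgroup.center L, t * s * t⁻¹ = s⁻¹) :
    Nat.card K ^ 4 - 1 ≤ N * 2 * (Nat.card K ^ 2 - 1) := by
  have hfd : FiniteDimensional K V := Module.Finite.of_finite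
  have c3 : Nat.Coprime 3 (Module.finrank K V) := by rw [hn]; decide
  have h2 := cov_card H (r := 3) (by norm_num) h3 hout (d := 2) (k := 2) (N := N)
    (fun x hx hxr c => card_eig_le H c3 (fun x hx hx1 c => three_dims H hn hrel hx hx1 c) hx hxr c)
    (by rw [hn]) hN
  rwa [hn] at h2

theorem four_threeL (H : QS p K V G L h) [Finite V] (hn : Module.finrank K V = 4) {N : ℕ}
    (h9 : 3 ^ 2 ∣ Nat.card (L ⧸ Subgroup.center L)) (hq : ¬ 3 ^ 2 ∣ Nat.card K ^ 4 - 1)
    (hN : Nat.card {R : Subgroup (L ⧸ Subgroup.center L) // Nat.card R = 3} ≤ N)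
    (hrel : ∀ s : L ⧸ Subgroup.center L, s ^ 3 = 1 → ∃ t : L ⧸ Subgroup.center L, t * s * t⁻¹ = s⁻¹) :
    Nat.card K ^ 4 - 1 ≤ N * (Nat.card K ^ 2 - 1) := by
  have hfd : FiniteDimensional K V := Module.Finite.of_finite
  have hfG : Finite G := Nat.finite_of_card_ne_zero fun h0 => H.cop (h0 ▸ dvd_zero p)
  have hfL : Finite L := Finite.of_injective (Subgroup.inclusion H.le) (Subgroup.inclusion_injective _)
  have h1 := covL_card H (r := 3) (a := 2) (by norm_num) (dvd_L h9) (by rw [card_V H, hn]; exact hq) (by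
    intro hd
    have : Fact (Nat.Prime 3) := ⟨by norm_num⟩
    obtain ⟨z, hz⟩ := exists_prime_orderOf_dvd_card' 3 hd
    have h2 := center_pow H z.2
    rw [hn] at h2
    have h3 : orderOf (z : L) ∣ 4 := orderOf_dvd_of_pow_eq_one h2
    rw [Subgroup.orderOf_coe, hz] at h3
    omega) (d := 2) (N := N) (fun x hx => by
      have h2 : Nat.card {v : V // (x : V ≃ₗ[ZMod p] V) v = v} =
          Nat.card {v : V // (x : V ≃ₗ[ZMod p] V) v = (1 : K) • v} :=
        Nat.card_congr (Equiv.subtypeEquivRight fun v => by rw [one_smul])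
      rw [h2, card_eig H]
      have := finK H
      refine Nat.pow_le_pow_right Nat.card_pos (three_dims H hn hrel ?_ ?_ 1)
      · rw [← hx]; exact pow_orderOf_eq_one x
      · rintro rfl; rw [orderOf_one] at hx; omega) hN
  rwa [hn] at h1

end three

/-! ### Groups generated by two elements with quadratic minimal polynomials -/

section two

open scoped commutatorElement in
/-- from generators of `S` to generators of `L` -/
theorem closure_top (H : QS p K V G L h) {a b : L}
    (hg : Subgroup.closure {(a : L ⧸ Subgroup.center L), (b : L ⧸ Subgroup.center L)} = ⊤) :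
    Subgroup.closure {a, b} = (⊤ : Subgroup L) := by
  set M : Subgroup L := Subgroup.closure {a, b} with hM
  have h1 : M.map (QuotientGroup.mk' (Subgroup.center L)) = ⊤ := by
    rw [hM, MonoidHom.map_closure, Set.image_pair]
    exact hg
  have h2 : ∀ g : L, ∃ m ∈ M, ∃ z ∈ Subgroup.center L, g = m * z := by
    intro g
    have h3 : (g : L ⧸ Subgroup.center L) ∈ M.map (QuotientGroup.mk' (Subgroup.center L)) := by
      rw [h1]; exact Subgroup.mem_top _
    obtain ⟨m, hm, hmg⟩ := h3
    exact ⟨m, hm, m⁻¹ * g, QuotientGroup.eq.1 hmg, by group⟩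
  rw [eq_top_iff, ← H.perf, commutator_def, Subgroup.commutator_le]
  intro g _ g' _
  obtain ⟨m, hm, z, hz, rfl⟩ := h2 g
  obtain ⟨m', hm', z', hz', rfl⟩ := h2 g'
  have c1 := Subgroup.mem_center_iff.1 hz
  have c2 := Subgroup.mem_center_iff.1 hz'
  have h3 : ⁅m * z, m' * z'⁆ = ⁅m, m'⁆ := by
    simp only [commutatorElement_def, mul_inv_rev]
    calc m * z * (m' * z') * (z⁻¹ * m⁻¹) * (z'⁻¹ * m'⁻¹)
        = m * (z * (m' * z')) * z⁻¹ * m⁻¹ * (z'⁻¹ * m'⁻¹) := by group
      _ = m * ((m' * z') * z) * z⁻¹ * m⁻¹ * (z'⁻¹ * m'⁻¹) := by rw [c1]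
      _ = m * m' * (z' * m⁻¹) * (z'⁻¹ * m'⁻¹) := by group
      _ = m * m' * (m⁻¹ * z') * (z'⁻¹ * m'⁻¹) := by rw [c2]
      _ = m * m' * m⁻¹ * m'⁻¹ := by group
  rw [h3, commutatorElement_def]
  exact M.mul_mem (M.mul_mem (M.mul_mem hm hm') (M.inv_mem hm)) (M.inv_mem hm')

/-- **two generators with quadratic minimal polynomials**: the dimension is not 4 -/
theorem two_gen (H : QS p K V G L h) [Finite V] (hn : Module.finrank K V = 4) {a b : L}
    (hg : Subgroup.closure {a, b} = (⊤ : Subgroup L)) {s t u w : K}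
    (ha : rho H a * rho H a = s • rho H a - t • 1) (hb : rho H b * rho H b = u • rho H b - w • 1) : False := by
  have hfd : FiniteDimensional K V := Module.Finite.of_finite
  have hfG : Finite G := Nat.finite_of_card_ne_zero fun h0 => H.cop (h0 ▸ dvd_zero p)
  have hfL : Finite L := Finite.of_injective (Subgroup.inclusion H.le) (Subgroup.inclusion_injective _)
  obtain ⟨v, hv⟩ := ne_zero H
  set x := rho H a with hx
  set y := rho H b with hy
  -- the central element
  set c := x * y + y * x - u • x - s • y with hc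
  have cx : x * c = c * x := by
    have e1 : x * (x * y) = s • (x * y) - t • y := by
      rw [← mul_assoc, ha, sub_mul, smul_mul_assoc, smul_mul_assoc, one_mul]
    have e2 : y * x * x = s • (y * x) - t • y := by
      rw [mul_assoc, ha, mul_sub, mul_smul_comm, mul_smul_comm, mul_one]
    rw [hc]
    simp only [mul_sub, sub_mul, mul_add, add_mul, mul_smul_comm, smul_mul_assoc]
    rw [e1, e2]
    simp only [mul_assoc]
    abel
  have cy : y * c = c * y := by
    have e1 : x * y * y = u • (x * y) - w • x := by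
      rw [mul_assoc, hb, mul_sub, mul_smul_comm, mul_smul_comm, mul_one]
    have e2 : y * (y * x) = u • (y * x) - w • x := by
      rw [← mul_assoc, hb, sub_mul, smul_mul_assoc, smul_mul_assoc, one_mul]
    rw [hc]
    simp only [mul_sub, sub_mul, mul_add, add_mul, mul_smul_comm, smul_mul_assoc]
    rw [e1, e2]
    simp only [mul_assoc]
    abel
  -- closure induction
  have ind : ∀ (P : L → Prop), P a → P b → P 1 → (∀ l m, P l → P m → P (l * m)) → ∀ l, P l := by
    intro P pa pb p1 pm l
    have hl : l ∈ Subgroup.closure {a, b} := by rw [hg]; exact Subgroup.mem_top l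
    have hpow : ∀ l, P l → ∀ n : ℕ, P (l ^ n) := by
      intro l hl n
      induction n with
      | zero => rw [pow_zero]; exact p1
      | succ n ih => rw [pow_succ]; exact pm _ _ ih hl
    refine Subgroup.closure_induction (p := fun l _ => P l) ?_ p1 (fun l m _ _ => pm l m) ?_ hl
    · rintro l (rfl | hl)
      · exact pa
      · rw [Set.mem_singleton_iff] at hl; rw [hl]; exact pb
    · intro l _ hl
      have h1 : l⁻¹ = l ^ (orderOf l - 1) := by
        have h2 := pow_orderOf_eq_one l
        have h3 : 0 < orderOf l := orderOf_pos l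
        rw [inv_eq_iff_mul_eq_one, ← pow_succ', Nat.sub_add_cancel h3, h2]
      rw [h1]
      exact hpow l hl _
  have toZ : ∀ f : Module.End K V, (∀ l : L, rho H l * f = f * rho H l) → ∃ k : K, f = k • 1 := by
    intro f hf
    obtain ⟨k, hk⟩ := H.endo ((f : V →ₗ[K] V).toAddMonoidHom.toZModLinearMap p) (by
      intro l hl v
      exact (congrArg (fun g : Module.End K V => g v) (hf ⟨l, hl⟩)).symm)
    exact ⟨k, LinearMap.ext hk⟩
  obtain ⟨γ, hγ⟩ := toZ c (ind _ cx cy (by rw [map_one, one_mul, mul_one]) fun l m hl hm => by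
    rw [map_mul, mul_assoc, hm, ← mul_assoc, hl, mul_assoc])
  have hyx : y * x = γ • 1 + u • x + s • y - x * y := by
    rw [← hγ, hc]; abel
  -- the algebra
  set A : Submodule K (Module.End K V) := Submodule.span K {1, x, y, x * y} with hA
  have m1 : (1 : Module.End K V) ∈ A := Submodule.subset_span (by simp)
  have mx : x ∈ A := Submodule.subset_span (by simp)
  have my : y ∈ A := Submodule.subset_span (by simp)
  have mxy : x * y ∈ A := Submodule.subset_span (by simp)
  have hxA : ∀ f ∈ A, x * f ∈ A := by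
    intro f hf
    refine Submodule.span_induction (p := fun f _ => x * f ∈ A) ?_ ?_ ?_ ?_ hf
    · intro f hf
      simp only [Set.mem_insert_iff, Set.mem_singleton_iff] at hf
      rcases hf with rfl | rfl | rfl | rfl
      · rw [mul_one]; exact mx
      · rw [ha]; exact A.sub_mem (A.smul_mem _ mx) (A.smul_mem _ m1)
      · exact mxy
      · rw [← mul_assoc, ha, sub_mul, smul_mul_assoc, smul_mul_assoc, one_mul]
        exact A.sub_mem (A.smul_mem _ mxy) (A.smul_mem _ my)
    · rw [mul_zero]; exact A.zero_mem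
    · intro f g _ _ h1 h2; rw [mul_add]; exact A.add_mem h1 h2
    · intro k f _ h1; rw [mul_smul_comm]; exact A.smul_mem _ h1
  have hyA : ∀ f ∈ A, y * f ∈ A := by
    have myx : y * x ∈ A := by
      rw [hyx]
      exact A.sub_mem (A.add_mem (A.add_mem (A.smul_mem _ m1) (A.smul_mem _ mx)) (A.smul_mem _ my)) mxy
    have myy : y * y ∈ A := by rw [hb]; exact A.sub_mem (A.smul_mem _ my) (A.smul_mem _ m1)
    intro f hf
    refine Submodule.span_induction (p := fun f _ => y * f ∈ A) ?_ ?_ ?_ ?_ hf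
    · intro f hf
      simp only [Set.mem_insert_iff, Set.mem_singleton_iff] at hf
      rcases hf with rfl | rfl | rfl | rfl
      · rw [mul_one]; exact my
      · exact myx
      · exact myy
      · rw [← mul_assoc, hyx, sub_mul, add_mul, add_mul, smul_mul_assoc, smul_mul_assoc, smul_mul_assoc, one_mul]
        exact A.sub_mem (A.add_mem (A.add_mem (A.smul_mem _ my) (A.smul_mem _ mxy)) (A.smul_mem _ myy)) (by
          rw [mul_assoc]; exact hxA _ myy)
    · rw [mul_zero]; exact A.zero_mem
    · intro f g _ _ h1 h2; rw [mul_add]; exact A.add_mem h1 h2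
    · intro k f _ h1; rw [mul_smul_comm]; exact A.smul_mem _ h1
  have hLA : ∀ l : L, ∀ f ∈ A, rho H l * f ∈ A := ind _ hxA hyA (fun f hf => by rw [map_one, one_mul]; exact hf)
    fun l m hl hm f hf => by rw [map_mul, mul_assoc]; exact hl _ (hm f hf)
  -- evaluation
  let ev : A →ₗ[K] V := { toFun := fun f => (f : Module.End K V) v, map_add' := fun _ _ => rfl, map_smul' := fun _ _ => rfl }
  have hsurj : Function.Surjective ev := by
    have h1 := H.irr ((LinearMap.range ev).toAddSubgroup.toZModSubmodule p) (by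
      rintro l hl _ ⟨f, rfl⟩
      exact ⟨⟨rho H ⟨l, hl⟩ * f, hLA ⟨l, hl⟩ f f.2⟩, rfl⟩)
    rcases h1 with h1 | h1
    · exfalso
      have h2 : v ∈ (LinearMap.range ev).toAddSubgroup.toZModSubmodule p := ⟨⟨1, m1⟩, rfl⟩
      rw [h1] at h2
      exact hv ((Submodule.mem_bot _).1 h2)
    · intro z
      have h2 : z ∈ (LinearMap.range ev).toAddSubgroup.toZModSubmodule p := by rw [h1]; exact Submodule.mem_top
      exact h2
  have hdim : Module.finrank K A ≤ 4 := by
    have h1 : A = Submodule.span K (Set.range ![(1 : Module.End K V), x, y, x * y]) := by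
      rw [hA]
      congr 1
      ext f
      simp only [Set.mem_insert_iff, Set.mem_singleton_iff, Set.mem_range]
      constructor
      · rintro (rfl | rfl | rfl | rfl)
        exacts [⟨0, rfl⟩, ⟨1, rfl⟩, ⟨2, rfl⟩, ⟨3, rfl⟩]
      · rintro ⟨i, rfl⟩
        fin_cases i
        exacts [Or.inl rfl, Or.inr (Or.inl rfl), Or.inr (Or.inr (Or.inl rfl)), Or.inr (Or.inr (Or.inr rfl))]
    rw [h1]
    have h2 := finrank_range_le_card (R := K) ![(1 : Module.End K V), x, y, x * y]
    rwa [Fintype.card_fin] at h2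
  have hinj : Function.Injective ev := by
    have h1 : Module.finrank K A = Module.finrank K V :=
      le_antisymm (hdim.trans hn.ge) (LinearMap.finrank_le_finrank_of_surjective hsurj)
    exact (LinearMap.injective_iff_surjective_of_finrank_eq_finrank h1).2 hsurj
  let e : A ≃ₗ[K] V := LinearEquiv.ofBijective ev ⟨hinj, hsurj⟩
  have right : ∀ d : Module.End K V, ∃ k : K, d v = k • v := by
    intro d
    let R : A →ₗ[K] V :=
      { toFun := fun f => (f : Module.End K V) (d v), map_add' := fun _ _ => rfl, map_smul' := fun _ _ => rfl }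
    let g : Module.End K V := R ∘ₗ e.symm.toLinearMap
    have hge : ∀ f : A, g ((f : Module.End K V) v) = (f : Module.End K V) (d v) := by
      intro f
      have h1 : e f = (f : Module.End K V) v := rfl
      rw [← h1]
      show R (e.symm (e f)) = _
      rw [LinearEquiv.symm_apply_apply]
      rfl
    obtain ⟨k, hk⟩ := toZ g (by
      intro l
      apply LinearMap.ext
      intro z
      obtain ⟨f, rfl⟩ := hsurj z
      have h1 := hge f
      have h2 := hge ⟨rho H l * f, hLA l f f.2⟩
      rw [Module.End.mul_apply, Module.End.mul_apply]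
      show rho H l (g ((f : Module.End K V) v)) = g (rho H l ((f : Module.End K V) v))
      rw [h1]
      exact h2.symm)
    refine ⟨k, ?_⟩
    have h1 := hge ⟨1, m1⟩
    rw [hk] at h1
    exact h1.symm
  have hline : ∀ l : L, ∃ k : K, (l : V ≃ₗ[ZMod p] V) v = k • v := fun l => right (rho H l)
  have h1 := H.irr ((Submodule.span K {v}).toAddSubgroup.toZModSubmodule p) (by
    intro l hl z hz
    obtain ⟨k, hk⟩ := hline ⟨l, hl⟩
    obtain ⟨m, rfl⟩ := Submodule.mem_span_singleton.1 (show z ∈ Submodule.span K {v} from hz)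
    show l (m • v) ∈ Submodule.span K {v}
    rw [H.lin l hl]
    exact Submodule.smul_mem _ _ (by
      rw [show l v = k • v from hk]
      exact Submodule.smul_mem _ _ (Submodule.mem_span_singleton_self v)))
  rcases h1 with h1 | h1
  · have h2 : v ∈ (Submodule.span K {v}).toAddSubgroup.toZModSubmodule p := Submodule.mem_span_singleton_self v
    rw [h1] at h2
    exact hv ((Submodule.mem_bot _).1 h2)
  · have h2 : Submodule.span K {v} = ⊤ := by
      rw [eq_top_iff]
      intro z _
      have h3 : z ∈ (Submodule.span K {v}).toAddSubgroup.toZModSubmodule p := by rw [h1]; exact Submodule.mem_top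
      exact h3
    have h3 := finrank_span_singleton (K := K) hv
    rw [h2, finrank_top, hn] at h3
    omega

/-- an element of prime order with a fixed vector -/
theorem dvd_h_of (H : QS p K V G L h) [Finite V] {r : ℕ} (hr : r.Prime) {x : L} (hx : x ^ r = 1) (hx1 : x ≠ 1) {v : V}
    (hv : v ≠ 0) (hxv : rho H x v = v) : r ∣ h := by
  have : Fact r.Prime := ⟨hr⟩
  have hx2 : orderOf x = r := orderOf_eq_prime hx hx1
  have h4 : orderOf (⟨x, H.le x.2⟩ : G) = r := by
    rw [← hx2, ← Subgroup.orderOf_coe, ← Subgroup.orderOf_coe]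
  exact dvd_h H.half h4 hv hxv

/-- `3 ∣ h` for groups generated by an involution and an element of order 3 modulo the centre -/
theorem three_dvd (H : QS p K V G L h) [Finite V] (hn : Module.finrank K V = 4)
    (hab : ∃ a b : L ⧸ Subgroup.center L, a ^ 2 = 1 ∧ b ^ 3 = 1 ∧ b ≠ 1 ∧ Subgroup.closure {a, b} = ⊤) : 3 ∣ h := by
  obtain ⟨a, b, ha, hb, hb1, hg⟩ := hab
  by_contra h3
  have c3 : Nat.Coprime 3 (Module.finrank K V) := by rw [hn]; decide
  obtain ⟨a, rfl⟩ := QuotientGroup.mk_surjective a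
  obtain ⟨b, rfl, hb3⟩ := lift H c3 hb
  have hz : a ^ 2 ∈ Subgroup.center L := by
    rw [← QuotientGroup.eq_one_iff, QuotientGroup.mk_pow]
    exact ha
  obtain ⟨c, hc⟩ := center_scalar H hz
  have hb1' : b ≠ 1 := by rintro rfl; exact hb1 rfl
  refine two_gen H hn (closure_top H hg) (s := 0) (t := -c) (u := -1) (w := 1) ?_ ?_
  · rw [← map_mul, ← pow_two]
    apply LinearMap.ext
    intro v
    rw [rho_apply, hc]
    simp
  · have h1 : rho H b ^ 3 = 1 := by rw [← map_pow, hb3, map_one]
    have h2 : (rho H b - 1) * (rho H b * rho H b + rho H b + 1) = 0 := by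
      have : (rho H b - 1) * (rho H b * rho H b + rho H b + 1) = rho H b ^ 3 - 1 := by
        rw [pow_succ, pow_two]; noncomm_ring
      rw [this, h1, sub_self]
    have h3 : rho H b * rho H b + rho H b + 1 = 0 := by
      apply LinearMap.ext
      intro v
      by_contra hv
      have h4 : rho H b ((rho H b * rho H b + rho H b + 1) v) = (rho H b * rho H b + rho H b + 1) v := by
        have h5 := congrArg (fun f : Module.End K V => f v) h2
        simp only [Module.End.mul_apply, LinearMap.sub_apply, Module.End.one_apply, LinearMap.zero_apply] at h5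
        exact sub_eq_zero.1 h5
      exact h3 (dvd_h_of H (by norm_num) hb3 hb1' hv h4)
    have h4 : rho H b * rho H b = (rho H b * rho H b + rho H b + 1) - rho H b - 1 := by abel
    rw [h4, h3, neg_smul, one_smul, one_smul]
    abel

end two

/-! ### The four groups -/

section four

theorem pow_four_lt {q m : ℕ} (hq : m ≤ q) (hm : 2 ≤ m) {N : ℕ} (hN : N < m ^ 2 + 1) :
    ¬ q ^ 4 - 1 ≤ N * (q ^ 2 - 1) := by
  intro h1
  have hq0 : 0 < q := by omega
  have h2 : q ^ 4 - 1 = (q ^ 2 + 1) * (q ^ 2 - 1) := by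
    obtain ⟨k, hk⟩ : ∃ k, q ^ 2 = k + 1 := ⟨q ^ 2 - 1, by
      have : 0 < q ^ 2 := by positivity
      omega⟩
    have h3 : q ^ 4 = (k + 1) ^ 2 := by rw [← hk]; ring
    rw [h3, hk, Nat.add_sub_cancel]
    have : (k + 1) ^ 2 = (k + 1 + 1) * k + 1 := by ring
    omega
  rw [h2] at h1
  have h3 : m ^ 2 ≤ q ^ 2 := Nat.pow_le_pow_left hq 2
  have h4 : 0 < q ^ 2 - 1 := by
    have : 4 ≤ m ^ 2 := by nlinarith
    omega
  have h5 := Nat.le_of_mul_le_mul_right h1 h4
  omega

theorem pow_four_lt' {q m : ℕ} (hq : m ≤ q) (hm : 2 ≤ m) {N : ℕ} (hN : N < m ^ 3) :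
    ¬ q ^ 4 - 1 ≤ N * (q ^ 1 - 1) := by
  intro h1
  have h3 : m ^ 3 ≤ q ^ 3 := Nat.pow_le_pow_left hq 3
  obtain ⟨k, rfl⟩ : ∃ k, q = k + 1 := ⟨q - 1, by omega⟩
  rw [pow_one, Nat.add_sub_cancel] at h1
  have h4 : (k + 1) ^ 4 = (k + 1) ^ 3 * k + (k + 1) ^ 3 := by ring
  have h5 : N * k ≤ (k + 1) ^ 3 * k := Nat.mul_le_mul_right k (by omega)
  have h6 : 1 < (k + 1) ^ 3 := by
    have : 8 ≤ m ^ 3 := by nlinarith [Nat.mul_le_mul hm hm]
    omega
  omega

theorem le_p {r : ℕ} (hr : ∀ l : ℕ, l.Prime → l < r → ¬ l = p) : r ≤ p := by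
  by_contra hc
  exact hr p Fact.out (by omega) rfl

theorem le_of_card (H : QS p K V G L h) [Finite V] {N r : ℕ} (hS : Nat.card (L ⧸ Subgroup.center L) = N)
    (hr : ∀ l : ℕ, l < r → l.Prime → l ∣ N) : r ≤ Nat.card K := by
  refine le_trans (le_p fun l hl hlr hlp => ?_) (le_q H)
  subst hlp
  exact not_dvd_S H (by rw [hS]; exact hr l hlr hl)

theorem core_A5 (H : QS p K V G L h) [Finite V] (hn : Module.finrank K V = 4)
    (hcard : Nat.card (L ⧸ Subgroup.center L) = 60)
    (hout : ¬ 3 ∣ Nat.card (MulAut (L ⧸ Subgroup.center L)) / Nat.card (L ⧸ Subgroup.center L))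
    (hN : Nat.card {R : Subgroup (L ⧸ Subgroup.center L) // Nat.card R = 3} ≤ 10)
    (hrel : ∀ s : L ⧸ Subgroup.center L, s ^ 3 = 1 → ∃ t : L ⧸ Subgroup.center L, t * s * t⁻¹ = s⁻¹)
    (hab : ∃ a b : L ⧸ Subgroup.center L, a ^ 2 = 1 ∧ b ^ 3 = 1 ∧ b ≠ 1 ∧ Subgroup.closure {a, b} = ⊤) : False := by
  have h1 := four_three H hn (three_dvd H hn hab) hout hN hrel
  refine pow_four_lt (le_of_card H hcard (r := 7) fun l hl hlp => ?_) (by norm_num) (by norm_num) h1
  interval_cases l <;> first | omega | (revert hlp; decide)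

theorem core_A6 (H : QS p K V G L h) [Finite V] (hn : Module.finrank K V = 4)
    (hcard : Nat.card (L ⧸ Subgroup.center L) = 360)
    (hout : ¬ 3 ∣ Nat.card (MulAut (L ⧸ Subgroup.center L)) / Nat.card (L ⧸ Subgroup.center L))
    (hN : Nat.card {R : Subgroup (L ⧸ Subgroup.center L) // Nat.card R = 3} ≤ 40)
    (hrel : ∀ s : L ⧸ Subgroup.center L, s ^ 3 = 1 → ∃ t : L ⧸ Subgroup.center L, t * s * t⁻¹ = s⁻¹)
    (hU : ∃ s t : L ⧸ Subgroup.center L, s ^ 3 = 1 ∧ t ^ 3 = 1 ∧ s * t = t * s ∧ s ≠ 1 ∧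
      t ∉ Subgroup.zpowers s) : False := by
  have c3 : Nat.Coprime 3 (Module.finrank K V) := by rw [hn]; decide
  have h3 : 3 ∣ h := by
    obtain ⟨s, t, hs, ht, hst, hs1, hts⟩ := hU
    obtain ⟨x, rfl, hx⟩ := lift H c3 hs
    obtain ⟨y, rfl, hy⟩ := lift H c3 ht
    have hxy : y * x * y⁻¹ = x ^ 1 := by
      refine lift_rel H c3 hx ?_
      rw [pow_one, ← hst, mul_inv_cancel_right]
    rw [pow_one, mul_inv_eq_iff_eq_mul] at hxy
    refine rank_two' H (by norm_num) (a := (x : V ≃ₗ[ZMod p] V)) (b := (y : V ≃ₗ[ZMod p] V)) (H.le x.2) (H.le y.2)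
      (congrArg Subtype.val hxy.symm) (congrArg Subtype.val hx) (congrArg Subtype.val hy)
      (fun h0 => hs1 ?_) (fun h0 => hts ?_)
    · have : x = 1 := Subtype.ext h0
      rw [this]; rfl
    · obtain ⟨k, hk⟩ := Subgroup.mem_zpowers_iff.1 h0
      have : x ^ k = y := Subtype.ext (by rw [Subgroup.coe_zpow]; exact hk)
      exact Subgroup.mem_zpowers_iff.2 ⟨k, by rw [← this, QuotientGroup.mk_zpow]⟩
  have h1 := four_three H hn h3 hout hN hrel
  have hq : 7 ≤ Nat.card K := le_of_card H hcard (r := 7) fun l hl hlp => by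
    interval_cases l <;> first | omega | (revert hlp; decide)
  have hq8 : Nat.card K < 9 := by
    by_contra hc
    exact pow_four_lt (m := 9) (by omega) (by norm_num) (by norm_num) h1
  have hq7 : Nat.card K = 7 := by
    rcases (show Nat.card K = 7 ∨ Nat.card K = 8 by omega) with h | h8
    · exact h
    · exfalso
      have hp : p ≤ 8 := h8 ▸ le_q H
      have hp7 : 7 ≤ p := le_p fun l hl hlr hlp => by
        subst hlp
        refine not_dvd_S H ?_
        rw [hcard]
        interval_cases l <;> first | omega | (revert hl; decide)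
      have hpp : p = 7 := by
        rcases (show p = 7 ∨ p = 8 by omega) with h | h
        · exact h
        · exfalso
          have := (Fact.out : p.Prime)
          rw [h] at this
          revert this; decide
      obtain ⟨v, hv⟩ := ne_zero H
      have := finK H
      have hp0 : (p : K) = 0 := by
        have h1 : (p : K) • v = 0 := by
          rw [Nat.cast_smul_eq_nsmul K, ← Nat.cast_smul_eq_nsmul (ZMod p), ZMod.natCast_self, zero_smul]
        exact (smul_eq_zero.1 h1).resolve_right hv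
      have h80 : ((8 : ℕ) : K) = 0 := by
        have : Fintype K := Fintype.ofFinite K
        rw [← h8, Nat.card_eq_fintype_card]
        exact FiniteField.cast_card_eq_zero K
      rw [hpp] at hp0
      have : (1 : K) = ((8 : ℕ) : K) - ((7 : ℕ) : K) := by push_cast; norm_num
      rw [h80, hp0, sub_zero] at this
      exact one_ne_zero this
  have h2 := four_threeL H hn (by rw [hcard]; norm_num) (by rw [hq7]; norm_num) hN hrel
  rw [hq7] at h2
  norm_num at h2

theorem core_A7 (H : QS p K V G L h) [Finite V] (hn : Module.finrank K V = 4)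
    (hcard : Nat.card (L ⧸ Subgroup.center L) = 2520)
    (hout : ¬ 7 ∣ Nat.card (MulAut (L ⧸ Subgroup.center L)) / Nat.card (L ⧸ Subgroup.center L))
    (hN : Nat.card {R : Subgroup (L ⧸ Subgroup.center L) // Nat.card R = 7} ≤ 120)
    (hrel : ∀ s : L ⧸ Subgroup.center L, s ^ 7 = 1 → s ≠ 1 → ∃ t : L ⧸ Subgroup.center L, t ^ 3 = 1 ∧
      t * s * t⁻¹ = s ^ 2) : False := by
  have h1 := four_seven H hn (by rw [hcard]; norm_num) hout hN hrel
  refine pow_four_lt' (le_of_card H hcard (r := 11) fun l hl hlp => ?_) (by norm_num) (by norm_num) h1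
  interval_cases l <;> first | omega | (revert hlp; decide)

theorem core_L27 (H : QS p K V G L h) [Finite V] (hn : Module.finrank K V = 4)
    (hcard : Nat.card (L ⧸ Subgroup.center L) = 168)
    (hout : ¬ 7 ∣ Nat.card (MulAut (L ⧸ Subgroup.center L)) / Nat.card (L ⧸ Subgroup.center L))
    (hN : Nat.card {R : Subgroup (L ⧸ Subgroup.center L) // Nat.card R = 7} ≤ 8)
    (hrel : ∀ s : L ⧸ Subgroup.center L, s ^ 7 = 1 → s ≠ 1 → ∃ t : L ⧸ Subgroup.center L, t ^ 3 = 1 ∧
      t * s * t⁻¹ = s ^ 2) : False := by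
  have h1 := four_seven H hn (by rw [hcard]; norm_num) hout hN hrel
  refine pow_four_lt' (le_of_card H hcard (r := 5) fun l hl hlp => ?_) (by norm_num) (by norm_num) h1
  interval_cases l <;> first | omega | (revert hlp; decide)

open Cfsg.Agent in
theorem kill_four_A5 (H : QS p K V G L h) [Finite V] (hn : Module.finrank K V = 4)
    (e : (L ⧸ Subgroup.center L) ≃* alternatingGroup (Fin 5)) : False :=
  core_A5 H hn (H392.HT.card_A5 e) (H392.HT.out_A5 e) (H392.HT.sub_A5 e) (H392.HT.inv_A5 e) (H392.HT.gen_A5 e)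

open Cfsg.Agent in
theorem kill_four_A6 (H : QS p K V G L h) [Finite V] (hn : Module.finrank K V = 4)
    (e : (L ⧸ Subgroup.center L) ≃* alternatingGroup (Fin 6)) : False :=
  core_A6 H hn (H392.HT.card_A6 e) (H392.HT.out_A6 e) (H392.HT.sub_A6 e) (H392.HT.inv_A6 e) (H392.HT.two_A6 e)

open Cfsg.Agent in
theorem kill_four_A7 (H : QS p K V G L h) [Finite V] (hn : Module.finrank K V = 4)
    (e : (L ⧸ Subgroup.center L) ≃* alternatingGroup (Fin 7)) : False :=
  core_A7 H hn (H392.HT.card_A7 e) (H392.HT.out_A7 e) (H392.HT.sub_A7 e) (H392.HT.sq_A7 e)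

open Cfsg.Agent in
theorem kill_four_L27 (H : QS p K V G L h) [Finite V] (hn : Module.finrank K V = 4)
    (hS : H912.Bd.IsL 2 7 (L ⧸ Subgroup.center L)) : False :=
  core_L27 H hn (H392.HT.card_L27 hS) (H392.HT.out_L27 hS) (H392.HT.sub_L27 hS) (H392.HT.sq_L27 hS)

end four

end Cfsg.Agent.H48.HT
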